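import Mathlib

/-!
# S3620 (Marggraf), primitive case: elementwise definitions (helper68 farm MG, paper proof by lead)
-/

set_option autoImplicit false

namespace Cfsg.Agent.Lib.Helper68.MG

universe u
variable {Ω : Type u}

/-- pointwise stabiliser of `F` in `G` -/
def Fx (G : Subgroup (Equiv.Perm Ω)) (F : Set Ω) : Subgroup (Equiv.Perm Ω) where
  carrier := {g | g ∈ G ∧ ∀ f ∈ F, g f = f}
  mul_mem' := by
    rintro a b ⟨ha, ha'⟩ ⟨hb, hb'⟩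
    exact ⟨mul_mem ha hb, fun f hf => by rw [Equiv.Perm.mul_apply, hb' f hf, ha' f hf]⟩
  one_mem' := ⟨one_mem _, fun _ _ => rfl⟩
  inv_mem' := by
    rintro a ⟨ha, ha'⟩
    exact ⟨inv_mem ha, fun f hf => by rw [Equiv.Perm.inv_eq_iff_eq, ha' f hf]⟩

theorem mem_Fx {G : Subgroup (Equiv.Perm Ω)} {F : Set Ω} {g : Equiv.Perm Ω} :
    g ∈ Fx G F ↔ g ∈ G ∧ ∀ f ∈ F, g f = f := Iff.rfl

/-- `Fᶜ` is a Jordan set: the pointwise stabiliser of `F` is transitive on the complement -/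
def Jor (G : Subgroup (Equiv.Perm Ω)) (F : Set Ω) : Prop :=
  ∀ x, x ∉ F → ∀ y, y ∉ F → ∃ g ∈ Fx G F, g x = y

/-- elementwise primitivity -/
def Prim (G : Subgroup (Equiv.Perm Ω)) : Prop :=
  (∀ x y : Ω, ∃ g ∈ G, g x = y) ∧
  ∀ B : Set Ω, (∀ g ∈ G, g '' B = B ∨ Disjoint (g '' B) B) → B.Subsingleton ∨ B = Set.univ

/-- output of the extension lemma -/
structure Ext (G : Subgroup (Equiv.Perm Ω)) (F B : Set Ω) : Prop where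
  sub : B ⊆ F
  ne : B.Nonempty
  jor : Jor G (F \ B)
  blk : ∀ μ ∈ Fx G (F \ B), μ '' B = B ∨ Disjoint (μ '' B) B
  lt : B.ncard < Fᶜ.ncard

/-- good flats inside `Δ` -/
structure Good (G : Subgroup (Equiv.Perm Ω)) (Δ F : Set Ω) : Prop where
  sub : F ⊆ Δ
  jor : Jor G F
  T : ∀ g ∈ G, F ⊆ g '' Δ → ∃ ν ∈ Fx G F, ν '' (g '' Δ) = Δ
  S : ∀ x ∈ Δ \ F, ∀ y ∈ Δ \ F, ∃ s ∈ Fx G F, s '' Δ = Δ ∧ s x = y

/-- the permutations of `Δ` induced by elements of `G` -/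
def Xr (G : Subgroup (Equiv.Perm Ω)) (Δ : Set Ω) : Subgroup (Equiv.Perm ↥Δ) where
  carrier := {τ | ∃ s ∈ G, ∀ x : ↥Δ, s (x : Ω) = ((τ x : ↥Δ) : Ω)}
  mul_mem' := by
    rintro a b ⟨s, hs, h1⟩ ⟨t, ht, h2⟩
    exact ⟨s * t, mul_mem hs ht, fun x => by
      rw [Equiv.Perm.mul_apply, h2 x, h1 (b x), Equiv.Perm.mul_apply]⟩
  one_mem' := ⟨1, one_mem _, fun _ => rfl⟩
  inv_mem' := by
    rintro a ⟨s, hs, h1⟩
    refine ⟨s⁻¹, inv_mem hs, fun x => ?_⟩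
    rw [Equiv.Perm.inv_eq_iff_eq, h1 (a⁻¹ x)]
    simp

theorem mem_Xr {G : Subgroup (Equiv.Perm Ω)} {Δ : Set Ω} {τ : Equiv.Perm ↥Δ} :
    τ ∈ Xr G Δ ↔ ∃ s ∈ G, ∀ x : ↥Δ, s (x : Ω) = ((τ x : ↥Δ) : Ω) := Iff.rfl

end Cfsg.Agent.Lib.Helper68.MG
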