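import Mathlib
import Cfsg.Agent.Lib.Helper68.MG.Defs

set_option autoImplicit false

namespace Cfsg.Agent.Lib.Helper68.MG

universe u
variable {Ω : Type u}

open scoped Pointwise

theorem BR1_smul (G : Subgroup (Equiv.Perm Ω)) (g : ↥G) (B : Set Ω) :
    g • B = (g : Equiv.Perm Ω) '' B := rfl

/-- unfold: `MulAction.IsPreprimitive` = pretransitive + every `MulAction.IsBlock ↥G B` is trivial (`IsTrivialBlock`); `(g : ↥G) • B = g '' B`; `MulAction.IsBlock` iff `g • B = B ∨ Disjoint (g • B) B` (`MulAction.isBlock_iff_smul_eq_or_disjoint`). -/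
theorem BR1 (G : Subgroup (Equiv.Perm Ω)) (h : MulAction.IsPreprimitive ↥G Ω) : Prim G := by
  constructor
  · intro x y
    obtain ⟨g, hg⟩ := h.toIsPretransitive.exists_smul_eq x y
    exact ⟨g, g.2, hg⟩
  · intro B hB
    have hblk : MulAction.IsBlock ↥G B := by
      rw [MulAction.isBlock_iff_smul_eq_or_disjoint]
      intro g
      rw [BR1_smul]
      exact hB g g.2
    exact h.isTrivialBlock_of_isBlock hblk

end Cfsg.Agent.Lib.Helper68.MG
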