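import Mathlib
import Cfsg.Agent.Lib.Helper68.MG.Defs

set_option autoImplicit false

namespace Cfsg.Agent.Lib.Helper68.MG

universe u
variable {Ω : Type u}

open scoped Pointwise

theorem BR2_smul (G : Subgroup (Equiv.Perm Ω)) (g : ↥G) (B : Set Ω) :
    g • B = (g : Equiv.Perm Ω) '' B := rfl

/-- converse of `BR1`. -/
theorem BR2 (G : Subgroup (Equiv.Perm Ω)) (h : Prim G) : MulAction.IsPreprimitive ↥G Ω := by
  have ht : MulAction.IsPretransitive ↥G Ω := ⟨fun x y => by
    obtain ⟨g, hg, hxy⟩ := h.1 x y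
    exact ⟨⟨g, hg⟩, hxy⟩⟩
  refine { toIsPretransitive := ht, isTrivialBlock_of_isBlock := ?_ }
  intro B hB
  rw [MulAction.isBlock_iff_smul_eq_or_disjoint] at hB
  apply h.2 B
  intro g hg
  have := hB ⟨g, hg⟩
  rw [BR2_smul] at this
  exact this

end Cfsg.Agent.Lib.Helper68.MG
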