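import Mathlib
import Cfsg.Agent.Lib.Helper68.MG.Defs
import Cfsg.Agent.Lib.Helper33.MG.E

set_option autoImplicit false

namespace Cfsg.Agent.Lib.Helper68.MG

universe u
variable {Ω : Type u} [Finite Ω]
/-- the extension lemma (proved in one go in `Helper33.MG.E`; the pieces E1 E2 E3 are not needed). -/
theorem E (G : Subgroup (Equiv.Perm Ω)) (hP : Prim G) (F : Set Ω) (hF : F.Nonempty) (h2 : 2 ≤ Fᶜ.ncard)
    (hJ : Jor G F) : ∃ B, Ext G F B :=
  Cfsg.Agent.Lib.Helper33.MG.exists_Ext G hP F hF h2 hJ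

end Cfsg.Agent.Lib.Helper68.MG
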