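import Mathlib
import Cfsg.Agent.Lib.Helper68.MG.Defs
import Cfsg.Agent.Lib.Helper26.MG.Step

set_option autoImplicit false

namespace Cfsg.Agent.Lib.Helper68.MG

universe u

variable {Ω : Type u} [Finite Ω]

/-- `[S]` for `F \ B` (adapter to `Cfsg.Agent.Lib.Helper26.MG.gs`) -/
theorem GS (G : Subgroup (Equiv.Perm Ω)) (Δ F B : Set Ω) (hJ : Jor G Δ) (hΓ : Δᶜ.Nonempty) (hG : Good G Δ F)
    (hE : Ext G F B) :
    ∀ x ∈ Δ \ (F \ B), ∀ y ∈ Δ \ (F \ B), ∃ s ∈ Fx G (F \ B), s '' Δ = Δ ∧ s x = y :=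
  Cfsg.Agent.Lib.Helper26.MG.gs G Δ F B hJ hΓ hG hE

end Cfsg.Agent.Lib.Helper68.MG
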