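import Mathlib
import Cfsg.Agent.Lib.Helper68.MG.Defs
import Cfsg.Agent.Lib.Helper16.MG.E

set_option autoImplicit false

namespace Cfsg.Agent.Lib.Helper68.MG

open Cfsg.Agent.Lib.Helper16.MG

universe u
variable {Ω : Type u}

/-- two translates of `B` that meet are equal -/
theorem D_translate {G : Subgroup (Equiv.Perm Ω)} {F B : Set Ω} (hE : Ext G F B)
    {μ ν : Equiv.Perm Ω} (hμ : μ ∈ Fx G (F \ B)) (hν : ν ∈ Fx G (F \ B))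
    (hmeet : (μ '' B ∩ ν '' B).Nonempty) : μ '' B = ν '' B := by
  obtain ⟨z, ⟨b, hb, hbz⟩, ⟨b', hb', hbz'⟩⟩ := hmeet
  have hm : ν⁻¹ * μ ∈ Fx G (F \ B) := mul_mem (inv_mem hν) hμ
  have h1 : (ν⁻¹ * μ) b = b' := by
    rw [Equiv.Perm.mul_apply, hbz, ← hbz']; simp
  rcases hE.blk _ hm with h | h
  · have h2 : ν '' ((ν⁻¹ * μ) '' B) = μ '' B := by
      rw [← Set.image_comp]
      congr 1
      ext x
      simp
    rw [← h2, h]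
  · exact absurd hb' (Set.disjoint_left.1 h ⟨b, hb, h1⟩)

theorem D (G : Subgroup (Equiv.Perm Ω)) (Δ F B : Set Ω) (hJ : Jor G Δ) (hΓ : Δᶜ.Nonempty) (hE : Ext G F B)
    (g : Equiv.Perm Ω) (hg : g ∈ G) (hsub : F \ B ⊆ g '' Δ)
    (U : Set Ω) (hU : U.Nonempty) (hU1 : U ⊆ (F \ B)ᶜ) (hU2 : U ⊆ g '' Δ)
    (hno : ∀ μ ∈ Fx G (F \ B), ¬ (g '' Δᶜ ∪ U ⊆ μ '' B)) :
    ∃ μ ∈ Fx G (F \ B), (μ '' B ∩ U).Nonempty ∧ Disjoint (μ '' B) (g '' Δᶜ) := by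
  classical
  obtain ⟨b, hb⟩ := hE.ne
  have hbF : b ∉ F \ B := fun h => h.2 hb
  -- the translate through x
  have hx : ∀ x ∈ U, ∃ μ ∈ Fx G (F \ B), μ b = x := fun x hx => hE.jor b hbF x (hU1 hx)
  -- dichotomy for a translate through a point of U
  have hdich : ∀ x ∈ U, ∀ μ ∈ Fx G (F \ B), μ b = x →
      g '' Δᶜ ⊆ μ '' B ∨ Disjoint (μ '' B) (g '' Δᶜ) := by
    intro x hxU μ hμ hμb
    by_cases hd : Disjoint (μ '' B) (g '' Δᶜ)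
    · exact Or.inr hd
    · left
      obtain ⟨y, hy1, ⟨y0, hy0, rfl⟩⟩ := Set.not_disjoint_iff.1 hd
      rintro _ ⟨y1, hy1', rfl⟩
      obtain ⟨k, hk, hky⟩ := hJ y0 hy0 y1 hy1'
      have hk' : g * k * g⁻¹ ∈ Fx G (F \ B) := E_conj_mem hg hk hsub
      have hkx : (g * k * g⁻¹) x = x := by
        obtain ⟨x0, hx0, rfl⟩ := hU2 hxU
        simp [hk.2 x0 hx0]
      have hkm : g * k * g⁻¹ * μ ∈ Fx G (F \ B) := mul_mem hk' hμ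
      have heq : (g * k * g⁻¹ * μ) '' B = μ '' B := by
        apply D_translate hE hkm hμ
        refine ⟨x, ⟨b, hb, ?_⟩, ⟨b, hb, hμb⟩⟩
        rw [Equiv.Perm.mul_apply, hμb, hkx]
      obtain ⟨b1, hb1, hb1y⟩ := hy1
      rw [← heq]
      refine ⟨b1, hb1, ?_⟩
      rw [Equiv.Perm.mul_apply, hb1y]
      simp [hky]
  by_contra hcon
  push_neg at hcon
  have hall : ∀ x ∈ U, ∀ μ ∈ Fx G (F \ B), μ b = x → g '' Δᶜ ⊆ μ '' B := by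
    intro x hxU μ hμ hμb
    rcases hdich x hxU μ hμ hμb with h | h
    · exact h
    · exact absurd h (hcon μ hμ ⟨x, ⟨b, hb, hμb⟩, hxU⟩)
  obtain ⟨x0, hx0⟩ := hU
  obtain ⟨μ0, hμ0, hμ0b⟩ := hx x0 hx0
  obtain ⟨w, hw⟩ := hΓ
  apply hno μ0 hμ0
  apply Set.union_subset (hall x0 hx0 μ0 hμ0 hμ0b)
  intro x hxU
  obtain ⟨μ, hμ, hμb⟩ := hx x hxU
  have : μ '' B = μ0 '' B := by
    apply D_translate hE hμ hμ0
    exact ⟨g w, hall x hxU μ hμ hμb ⟨w, hw, rfl⟩, hall x0 hx0 μ0 hμ0 hμ0b ⟨w, hw, rfl⟩⟩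
  rw [← this]
  exact ⟨b, hb, hμb⟩

end Cfsg.Agent.Lib.Helper68.MG
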