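import Mathlib
import Cfsg.Agent.Lib.Helper68.MG.Defs
import Cfsg.Agent.Lib.Helper68.MG.D

set_option autoImplicit false

namespace Cfsg.Agent.Lib.Helper68.MG

universe u
variable {Ω : Type u} [Finite Ω]

/-- `[T]` for `F' = F \ B`. -/
theorem GT (G : Subgroup (Equiv.Perm Ω)) (Δ F B : Set Ω) (hJ : Jor G Δ) (hΓ : Δᶜ.Nonempty) (hG : Good G Δ F)
    (hE : Ext G F B) : ∀ g ∈ G, F \ B ⊆ g '' Δ → ∃ ν ∈ Fx G (F \ B), ν '' (g '' Δ) = Δ := by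
  intro g hg hsub
  have hcompl : ∀ w, w ∉ g '' Δ → w ∈ g '' Δᶜ := by
    intro w hw
    refine ⟨g⁻¹ w, ?_, by simp⟩
    intro hd
    exact hw ⟨g⁻¹ w, hd, by simp⟩
  -- `U` is nonempty
  have hU : ((F \ B)ᶜ ∩ g '' Δ).Nonempty := by
    by_contra hemp
    rw [Set.not_nonempty_iff_eq_empty] at hemp
    have h1 : g '' Δ ⊆ F \ B := by
      intro w hw
      by_contra hn
      have : w ∈ (F \ B)ᶜ ∩ g '' Δ := ⟨hn, hw⟩
      rw [hemp] at this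
      exact this
    have h2 : (g '' Δ).ncard = Δ.ncard := Set.ncard_image_of_injective _ g.injective
    have h3 : (g '' Δ).ncard ≤ (F \ B).ncard := Set.ncard_le_ncard h1 (Set.toFinite _)
    have h4 : (F \ B).ncard < F.ncard := by
      apply Set.ncard_lt_ncard _ (Set.toFinite _)
      obtain ⟨b, hb⟩ := hE.ne
      refine ⟨Set.sdiff_subset, fun hh => ?_⟩
      exact (hh (hE.sub hb)).2 hb
    have h5 : F.ncard ≤ Δ.ncard := Set.ncard_le_ncard hG.sub (Set.toFinite _)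
    omega
  have hno : ∀ μ ∈ Fx G (F \ B), ¬ (g '' Δᶜ ∪ ((F \ B)ᶜ ∩ g '' Δ) ⊆ μ '' B) := by
    intro μ _ hsubμ
    have h1 : Fᶜ ⊆ μ '' B := by
      intro w hw
      apply hsubμ
      by_cases hwd : w ∈ g '' Δ
      · right
        exact ⟨fun hh => hw hh.1, hwd⟩
      · left
        exact hcompl w hwd
    have h2 : Fᶜ.ncard ≤ (μ '' B).ncard := Set.ncard_le_ncard h1 (Set.toFinite _)
    rw [Set.ncard_image_of_injective _ μ.injective] at h2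
    have := hE.lt
    omega
  obtain ⟨μ, hμ, -, hdis⟩ := D G Δ F B hJ hΓ hE g hg hsub _ hU Set.inter_subset_left
    Set.inter_subset_right hno
  have hμB : μ '' B ⊆ g '' Δ := by
    intro w hw
    by_contra hn
    exact Set.disjoint_left.mp hdis hw (hcompl w hn)
  have hFsub : F ⊆ (μ⁻¹ * g : Equiv.Perm Ω) '' Δ := by
    intro f hf
    by_cases hfB : f ∈ B
    · obtain ⟨d, hd, hde⟩ := hμB ⟨f, hfB, rfl⟩
      refine ⟨d, hd, ?_⟩
      rw [Equiv.Perm.mul_apply, hde]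
      simp
    · obtain ⟨d, hd, hde⟩ := hsub ⟨hf, hfB⟩
      refine ⟨d, hd, ?_⟩
      rw [Equiv.Perm.mul_apply, hde, Equiv.Perm.inv_eq_iff_eq]
      exact (hμ.2 f ⟨hf, hfB⟩).symm
  obtain ⟨ν, hν, hνe⟩ := hG.T (μ⁻¹ * g) (mul_mem (inv_mem hμ.1) hg) hFsub
  have hν' : ν ∈ Fx G (F \ B) := ⟨hν.1, fun f hf => hν.2 f hf.1⟩
  refine ⟨ν * μ⁻¹, mul_mem hν' (inv_mem hμ), ?_⟩
  have himg : (ν * μ⁻¹ : Equiv.Perm Ω) '' (g '' Δ) = ν '' ((μ⁻¹ * g : Equiv.Perm Ω) '' Δ) := by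
    ext w
    simp only [Set.mem_image, Equiv.Perm.mul_apply]
    constructor
    · rintro ⟨_, ⟨d, hd, rfl⟩, rfl⟩
      exact ⟨_, ⟨d, hd, rfl⟩, rfl⟩
    · rintro ⟨_, ⟨d, hd, rfl⟩, rfl⟩
      exact ⟨_, ⟨d, hd, rfl⟩, rfl⟩
  rw [himg, hνe]

end Cfsg.Agent.Lib.Helper68.MG
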