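import Mathlib
import Cfsg.Agent.Lib.Helper68.MG.Defs

set_option autoImplicit false

namespace Cfsg.Agent.Lib.Helper68.MG

universe u
variable {Ω : Type u} [Finite Ω]
/-- `F \ B = ∅` and `B ⊆ F` give `B = F`; `Fx G ∅ = G`, so `B` is a block (`hE.blk`); `hP.2 B`: `B` subsingleton (then `F = {d}` as `B` is nonempty) or `B = univ`
(impossible: `|B| < |Fᶜ| = |∅| = 0`). -/
theorem P3 (G : Subgroup (Equiv.Perm Ω)) (hP : Prim G) (F B : Set Ω) (hE : Ext G F B) (h0 : F \ B = ∅) :
    ∃ d, F = {d} := by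
  have hFB : F = B := by
    apply Set.Subset.antisymm _ hE.sub
    intro x hx
    by_contra hxB
    have : x ∈ F \ B := ⟨hx, hxB⟩
    rw [h0] at this
    exact this
  have hblk : ∀ g ∈ G, g '' B = B ∨ Disjoint (g '' B) B := by
    intro g hg
    apply hE.blk g
    rw [h0]
    exact ⟨hg, fun f hf => absurd hf (Set.notMem_empty f)⟩
  rcases hP.2 B hblk with h | h
  · obtain ⟨d, hd⟩ := hE.ne
    refine ⟨d, ?_⟩
    rw [hFB]
    ext x
    constructor
    · intro hx
      exact h hx hd
    · rintro rfl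
      exact hd
  · exfalso
    have h1 := hE.lt
    rw [hFB, h] at h1
    simp at h1

end Cfsg.Agent.Lib.Helper68.MG
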