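import Mathlib
import Cfsg.Agent.Lib.Helper68.MG.Defs
import Cfsg.Agent.Lib.Helper68.MG.E
import Cfsg.Agent.Lib.Helper68.MG.P3
import Cfsg.Agent.Lib.Helper68.MG.GT
import Cfsg.Agent.Lib.Helper68.MG.GS

set_option autoImplicit false

namespace Cfsg.Agent.Lib.Helper68.MG

universe u
variable {Ω : Type u} [Finite Ω]
/-- ASSEMBLY, strong induction on `n = |F|`.  `Fᶜ ⊇ Δᶜ` so `2 ≤ |Fᶜ|`; `E` gives `B`; `Good G Δ (F \ B)` = `⟨_, hE.jor, GT .., GS ..⟩`.  If `F \ B = ∅`: `P3` gives `F = {d}`, `d ∈ Δ` by `sub`.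
Otherwise recurse on `F \ B` (`|F \ B| < |F|`, `B` nonempty subset of `F`). -/
theorem CH (G : Subgroup (Equiv.Perm Ω)) (hP : Prim G) (Δ : Set Ω) (h2 : 2 ≤ Δᶜ.ncard) (hJ : Jor G Δ) :
    ∀ (n : ℕ) (F : Set Ω), F.ncard = n → F.Nonempty → Good G Δ F →
      ∃ d ∈ Δ, Good G Δ {d} ∧ Good G Δ ∅ := by
  have hΓ : Δᶜ.Nonempty := by
    rw [← Set.ncard_pos]
    omega
  intro n
  induction n using Nat.strong_induction_on with
  | _ n ih =>
    intro F hFn hFne hG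
    have h2F : 2 ≤ Fᶜ.ncard :=
      le_trans h2 (Set.ncard_le_ncard (Set.compl_subset_compl.mpr hG.sub) (Set.toFinite _))
    obtain ⟨B, hE⟩ := E G hP F hFne h2F hG.jor
    have hG' : Good G Δ (F \ B) :=
      ⟨fun x hx => hG.sub hx.1, hE.jor, GT G Δ F B hJ hΓ hG hE, GS G Δ F B hJ hΓ hG hE⟩
    by_cases h0 : F \ B = ∅
    · obtain ⟨d, hd⟩ := P3 G hP F B hE h0
      refine ⟨d, hG.sub (by rw [hd]; rfl), ?_, ?_⟩
      · rw [← hd]; exact hG
      · rw [← h0]; exact hG'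
    · have hne : (F \ B).Nonempty := Set.nonempty_iff_ne_empty.mpr h0
      have hlt : (F \ B).ncard < n := by
        rw [← hFn]
        obtain ⟨b, hb⟩ := hE.ne
        refine Set.ncard_lt_ncard ⟨fun x hx => hx.1, fun hsub => ?_⟩ (Set.toFinite _)
        exact (hsub (hE.sub hb)).2 hb
      exact ih _ hlt (F \ B) rfl hne hG'

end Cfsg.Agent.Lib.Helper68.MG
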