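import Mathlib
import Cfsg.Agent.Lib.Helper68.MG.Defs

set_option autoImplicit false

namespace Cfsg.Agent.Lib.Helper68.MG

universe u
variable {Ω : Type u} [Finite Ω]
/-- `T`: `Δ ⊆ g '' Δ` with the same card gives `g '' Δ = Δ`, `ν = 1`.  `S`: `Δ \ Δ = ∅`. -/
theorem G0 (G : Subgroup (Equiv.Perm Ω)) (Δ : Set Ω) (hJ : Jor G Δ) : Good G Δ Δ := by
  refine ⟨subset_rfl, hJ, ?_, ?_⟩
  · intro g _ hsub
    refine ⟨1, (Fx G Δ).one_mem, ?_⟩
    have h1 : Δ = g '' Δ :=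
      Set.eq_of_subset_of_ncard_le hsub
        (by rw [Set.ncard_image_of_injective Δ g.injective]) (Set.toFinite _)
    rw [← h1]
    simp
  · intro x hx
    exact absurd hx.1 hx.2

end Cfsg.Agent.Lib.Helper68.MG
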