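import Mathlib
import Cfsg.Agent.Lib.Helper68.MG.Defs

set_option autoImplicit false

namespace Cfsg.Agent.Lib.Helper68.MG

universe u
variable {Ω : Type u}
/-- `x, y ∉ F \ B`; `hE.jor` gives `s` with `s x = y`; `s '' B` meets `B` in `y`, so `s '' B = B` by `hE.blk`. -/
theorem P2 (G : Subgroup (Equiv.Perm Ω)) (F B : Set Ω) (hE : Ext G F B) :
    ∀ x ∈ B, ∀ y ∈ B, ∃ s ∈ Fx G (F \ B), s '' B = B ∧ s x = y := by
  intro x hx y hy
  obtain ⟨s, hs, hsx⟩ := hE.jor x (fun h => h.2 hx) y (fun h => h.2 hy)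
  refine ⟨s, hs, ?_, hsx⟩
  rcases hE.blk s hs with h | h
  · exact h
  · exfalso
    exact Set.disjoint_left.mp h ⟨x, hx, hsx⟩ hy

end Cfsg.Agent.Lib.Helper68.MG
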