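import Mathlib
import Cfsg.Agent.Lib.Helper68.MG.Defs
import Cfsg.Agent.Lib.Helper68.MG.P2

set_option autoImplicit false

namespace Cfsg.Agent.Lib.Helper68.MG

universe u
variable {Ω : Type u}
/-- `Δ \ (Δ \ B) = B` (`B ⊆ Δ`); `P2` gives `s ∈ Fx G (Δ \ B)` with `s '' B = B`, `s x = y`; `s` fixes `Δ \ B` pointwise so `s '' Δ = Δ`. -/
theorem GS1 (G : Subgroup (Equiv.Perm Ω)) (Δ B : Set Ω) (hE : Ext G Δ B) :
    ∀ x ∈ Δ \ (Δ \ B), ∀ y ∈ Δ \ (Δ \ B), ∃ s ∈ Fx G (Δ \ B), s '' Δ = Δ ∧ s x = y := by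
  intro x hx y hy
  have hxB : x ∈ B := by
    by_contra h
    exact hx.2 ⟨hx.1, h⟩
  have hyB : y ∈ B := by
    by_contra h
    exact hy.2 ⟨hy.1, h⟩
  obtain ⟨s, hs, hsB, hsx⟩ := P2 G Δ B hE x hxB y hyB
  refine ⟨s, hs, ?_, hsx⟩
  have hfix := (mem_Fx.mp hs).2
  ext w
  constructor
  · rintro ⟨v, hv, rfl⟩
    by_cases hvB : v ∈ B
    · have : s v ∈ s '' B := ⟨v, hvB, rfl⟩
      rw [hsB] at this
      exact hE.sub this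
    · rw [hfix v ⟨hv, hvB⟩]; exact hv
  · intro hw
    by_cases hwB : w ∈ B
    · rw [← hsB] at hwB
      obtain ⟨v, hv, rfl⟩ := hwB
      exact ⟨v, hE.sub hv, rfl⟩
    · exact ⟨w, hw, hfix w ⟨hw, hwB⟩⟩

end Cfsg.Agent.Lib.Helper68.MG
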