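import Mathlib
import Cfsg.Agent.Lib.Helper68.MG.Defs

set_option autoImplicit false

namespace Cfsg.Agent.Lib.Helper68.MG

universe u
variable {Ω : Type u}
/-- restriction: `τ := s.subtypePerm _`, using `s x ∈ Δ ↔ x ∈ Δ` from `s '' Δ = Δ` and injectivity. -/
theorem XR1 (G : Subgroup (Equiv.Perm Ω)) (Δ : Set Ω) (s : Equiv.Perm Ω) (hs : s ∈ G) (hΔ : s '' Δ = Δ) :
    ∃ τ ∈ Xr G Δ, ∀ x : ↥Δ, ((τ x : ↥Δ) : Ω) = s (x : Ω) := by
  have h : ∀ x, s x ∈ Δ ↔ x ∈ Δ := by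
    intro x
    constructor
    · intro hx
      rw [← hΔ] at hx
      obtain ⟨y, hy, hyx⟩ := hx
      have : y = x := s.injective hyx
      rwa [this] at hy
    · intro hx
      rw [← hΔ]
      exact ⟨x, hx, rfl⟩
  refine ⟨s.subtypePerm h, ⟨s, hs, fun x => rfl⟩, fun x => rfl⟩

end Cfsg.Agent.Lib.Helper68.MG
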