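import Mathlib
import Cfsg.Agent.Lib.Helper68.MG.Defs
import Cfsg.Agent.Lib.Helper68.MG.GS1
import Cfsg.Agent.Lib.Helper68.MG.XR1

set_option autoImplicit false

namespace Cfsg.Agent.Lib.Helper68.MG

universe u
variable {Ω : Type u}
/-- `x, y : ↥Δ` with `↑x, ↑y ∈ B`: `GS1` gives `s ∈ Fx G (Δ \ B)`, `s '' Δ = Δ`, `s x = y`; `XR1` gives `τ ∈ Xr G Δ` induced by `s`; `τ` fixes every `f : ↥Δ` with `↑f ∉ B`. -/
theorem JX (G : Subgroup (Equiv.Perm Ω)) (Δ B : Set Ω) (hE : Ext G Δ B) :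
    Jor (Xr G Δ) ({x : ↥Δ | (x : Ω) ∈ B}ᶜ) := by
  intro x hx y hy
  have hxB : (x : Ω) ∈ B := by simpa using hx
  have hyB : (y : Ω) ∈ B := by simpa using hy
  obtain ⟨s, hs, hsΔ, hsxy⟩ := GS1 G Δ B hE x ⟨x.2, fun h => h.2 hxB⟩ y ⟨y.2, fun h => h.2 hyB⟩
  obtain ⟨τ, hτ, hτs⟩ := XR1 G Δ s hs.1 hsΔ
  refine ⟨τ, ⟨hτ, ?_⟩, ?_⟩
  · intro f hf
    apply Subtype.ext
    rw [hτs]
    exact hs.2 f ⟨f.2, fun h => hf h⟩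
  · apply Subtype.ext
    rw [hτs, hsxy]

end Cfsg.Agent.Lib.Helper68.MG
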