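import Mathlib
import Cfsg.Agent.Lib.Helper68.MG.Defs
import Cfsg.Agent.Lib.Helper68.MG.BR2
import Cfsg.Agent.Lib.Helper95.MG.M1

set_option autoImplicit false

namespace Cfsg.Agent.Lib.Helper68.MG

universe u
variable {Ω : Type u} [Fintype Ω] [DecidableEq Ω]
/-- adapter to the one-shot proof `Cfsg.Agent.Lib.Helper95.MG.M1_alt` (does not need M1b M1c T3). -/
theorem M1d (G : Subgroup (Equiv.Perm Ω)) (hP : Prim G) (Δ : Set Ω) (b : Ω) (hb : b ∈ Δ) (hJ : Jor G Δ)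
    (hJ' : Jor G (Δ \ {b})) (h2 : 2 ≤ Δᶜ.ncard) (hlt : Δᶜ.ncard < Δ.ncard) :
    ∃ c ∈ G, c.IsThreeCycle := by
  have hsum : Δ.ncard + Δᶜ.ncard = Fintype.card Ω := by
    rw [Set.ncard_add_ncard_compl, Nat.card_eq_fintype_card]
  have hle : alternatingGroup Ω ≤ G :=
    Cfsg.Agent.Lib.Helper95.MG.M1_alt G (BR2 G hP) Δᶜ h2 (by omega) (by rwa [compl_compl]) b
      (by rwa [compl_compl]) (by rwa [compl_compl])
  obtain ⟨x, y, z, hxy, hxz, hyz⟩ := Fintype.two_lt_card_iff.1 (by omega : 2 < Fintype.card Ω)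
  have h3 := Equiv.Perm.isThreeCycle_swap_mul_swap_same hxy hxz hyz
  exact ⟨_, hle h3.mem_alternatingGroup, h3⟩

end Cfsg.Agent.Lib.Helper68.MG
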