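import Mathlib
import Cfsg.Agent.Lib.Helper68.MG.Defs
import Cfsg.Agent.Lib.Helper33.MG.M2

set_option autoImplicit false

namespace Cfsg.Agent.Lib.Helper68.MG

universe u
variable {Ω : Type u} [Fintype Ω] [DecidableEq Ω]
/-- case `e ≥ 2`, tail (proved in one go in `Helper33.MG.M2`; the pieces CN1 CN2 SI0-SI3 LF are not needed). -/
theorem M2 (G : Subgroup (Equiv.Perm Ω)) (Δ : Set Ω) [Fintype ↥Δ] [DecidableEq ↥Δ] (h5 : 5 ≤ Fintype.card ↥Δ)
    (h2 : 2 ≤ Δᶜ.ncard) (hlt : Δᶜ.ncard < Δ.ncard) (hA : alternatingGroup ↥Δ ≤ Xr G Δ) :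
    ∃ c ∈ G, c.IsThreeCycle := by
  classical
  refine Cfsg.Agent.Lib.Helper33.MG.M2_threeCycle G Δ ?_ ?_ ?_ ?_
  · convert h5
  · rw [← Nat.card_eq_fintype_card, Nat.card_coe_set_eq]
    exact h2
  · have e1 : ∀ (s : Set Ω) (i : Fintype ↥s), @Fintype.card ↥s i = s.ncard := by
      intro s i
      rw [← Nat.card_eq_fintype_card, Nat.card_coe_set_eq]
    rw [e1, e1]
    exact hlt
  · intro σ hσ
    have h : σ ∈ alternatingGroup ↥Δ := by convert hσ
    exact hA h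

end Cfsg.Agent.Lib.Helper68.MG
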