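import Mathlib
import Cfsg.Agent.Lib.Helper68.MG.Defs

set_option autoImplicit false

namespace Cfsg.Agent.Lib.Helper68.MG

universe u
variable {Ω : Type u} [Finite Ω]

omit [Finite Ω] in
theorem P1_key (μ μ' : Equiv.Perm Ω) (B : Set Ω) (h : (μ⁻¹ * μ') '' B = B) : μ' '' B = μ '' B := by
  conv_rhs => rw [← h]
  rw [Set.image_image]
  simp

/-- the translates `μ '' B` (`μ ∈ Fx G (F \ B)`) partition `(F \ B)ᶜ`. -/
theorem P1 (G : Subgroup (Equiv.Perm Ω)) (F B : Set Ω) (hE : Ext G F B) : B.ncard ∣ (F \ B)ᶜ.ncard := by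
  classical
  have := Fintype.ofFinite Ω
  let PP : Finset (Finset Ω) := Finset.univ.filter (fun A => ∃ μ ∈ Fx G (F \ B), (A : Set Ω) = μ '' B)
  have hU : PP.biUnion id = (F \ B)ᶜ.toFinset := by
    ext x
    simp only [Finset.mem_biUnion, id, Set.mem_toFinset]
    constructor
    · rintro ⟨A, hA, hx⟩
      obtain ⟨μ, hμ, hAμ⟩ := (Finset.mem_filter.1 hA).2
      have hx' : x ∈ (A : Set Ω) := hx
      rw [hAμ] at hx'
      obtain ⟨b, hb, rfl⟩ := hx'
      intro hmem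
      have h1 := hμ.2 _ hmem
      have h2 : μ b = b := μ.injective h1
      rw [h2] at hmem
      exact hmem.2 hb
    · intro hx
      obtain ⟨b, hb⟩ := hE.ne
      obtain ⟨g, hg, hgx⟩ := hE.jor b (fun h => h.2 hb) x hx
      refine ⟨(g '' B).toFinset, Finset.mem_filter.2 ⟨Finset.mem_univ _, g, hg, by simp⟩, ?_⟩
      rw [Set.mem_toFinset]
      exact ⟨b, hb, hgx⟩
  have hD : ∀ A ∈ PP, ∀ A' ∈ PP, A ≠ A' → Disjoint (id A) (id A') := by
    intro A hA A' hA' hne
    obtain ⟨μ, hμ, hAμ⟩ := (Finset.mem_filter.1 hA).2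
    obtain ⟨μ', hμ', hAμ'⟩ := (Finset.mem_filter.1 hA').2
    rw [Finset.disjoint_left]
    intro x hx hx'
    apply hne
    have hx1 : x ∈ (A : Set Ω) := hx
    have hx2 : x ∈ (A' : Set Ω) := hx'
    rw [hAμ] at hx1
    rw [hAμ'] at hx2
    obtain ⟨b, hb, hbx⟩ := hx1
    obtain ⟨b', hb', hbx'⟩ := hx2
    have hmem : μ⁻¹ * μ' ∈ Fx G (F \ B) := mul_mem (inv_mem hμ) hμ'
    rcases hE.blk _ hmem with h | h
    · have := P1_key μ μ' B h
      apply Finset.coe_injective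
      rw [hAμ, hAμ', this]
    · exfalso
      have h1 : (μ⁻¹ * μ') b' = b := by
        rw [Equiv.Perm.mul_apply, hbx', ← hbx]
        simp
      exact Set.disjoint_left.1 h ⟨b', hb', h1⟩ hb
  have hc : ∀ A ∈ PP, (id A).card = B.ncard := by
    intro A hA
    obtain ⟨μ, hμ, hAμ⟩ := (Finset.mem_filter.1 hA).2
    have h1 : (A : Set Ω).ncard = A.card := Set.ncard_coe_finset A
    rw [hAμ, Set.ncard_image_of_injective B μ.injective] at h1
    exact h1.symm
  have h1 := Finset.card_biUnion hD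
  rw [hU, Finset.sum_congr rfl hc, Finset.sum_const, smul_eq_mul, ← Set.ncard_eq_toFinset_card'] at h1
  rw [h1]
  exact Dvd.intro_left _ rfl

end Cfsg.Agent.Lib.Helper68.MG
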