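import Mathlib
import Cfsg.Agent.Lib.Helper68.MG.Defs
import Cfsg.Agent.Lib.Helper68.MG.XR1

set_option autoImplicit false

namespace Cfsg.Agent.Lib.Helper68.MG

universe u
variable {Ω : Type u}
/-- transitive: `h0.S` (`Δ \ ∅`, `Fx G ∅`) + `XR1`.  Blocks: let `Bl` be a block with `x ≠ y` in it and `z ≠ x` arbitrary.  Take `τ ∈ Xr` with `τ x = d`; `τ y, τ z ≠ d`; `h1.S` + `XR1` give `σ ∈ Xr` with `σ d = d`
(`σ` comes from `Fx G {d}`), `σ (τ y) = τ z`.  `ρ = τ⁻¹ σ τ` fixes `x`, so `ρ '' Bl = Bl`, and `ρ y = z ∈ Bl`.  So `Bl = univ`. -/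
theorem TW (G : Subgroup (Equiv.Perm Ω)) (Δ : Set Ω) (d : Ω) (hd : d ∈ Δ) (h1 : Good G Δ {d}) (h0 : Good G Δ ∅) :
    Prim (Xr G Δ) := by
  have htr : ∀ x y : ↥Δ, ∃ g ∈ Xr G Δ, g x = y := by
    intro x y
    obtain ⟨s, hs, hΔ, hxy⟩ := h0.S x.1 ⟨x.2, fun h => h⟩ y.1 ⟨y.2, fun h => h⟩
    obtain ⟨τ, hτ, hτs⟩ := XR1 G Δ s hs.1 hΔ
    exact ⟨τ, hτ, Subtype.ext (by rw [hτs, hxy])⟩
  refine ⟨htr, fun Bl hBl => ?_⟩
  by_cases hsub : Bl.Subsingleton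
  · exact Or.inl hsub
  right
  rw [Set.not_subsingleton_iff] at hsub
  obtain ⟨x, hx, y, hy, hxy⟩ := hsub
  rw [Set.eq_univ_iff_forall]
  intro z
  by_cases hzx : z = x
  · rw [hzx]; exact hx
  obtain ⟨τ, hτ, hτx⟩ := htr x ⟨d, hd⟩
  have hyd : ((τ y : ↥Δ) : Ω) ≠ d := by
    intro h
    apply hxy
    apply τ.injective
    rw [hτx]
    exact (Subtype.ext h).symm
  have hzd : ((τ z : ↥Δ) : Ω) ≠ d := by
    intro h
    apply hzx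
    apply τ.injective
    rw [hτx]
    exact Subtype.ext h
  obtain ⟨s, hs, hΔ, hsyz⟩ := h1.S (τ y).1 ⟨(τ y).2, hyd⟩ (τ z).1 ⟨(τ z).2, hzd⟩
  obtain ⟨σ, hσ, hσs⟩ := XR1 G Δ s hs.1 hΔ
  have hσd : σ ⟨d, hd⟩ = ⟨d, hd⟩ := Subtype.ext (by rw [hσs]; exact hs.2 d rfl)
  have hσy : σ (τ y) = τ z := Subtype.ext (by rw [hσs]; exact hsyz)
  set ρ : Equiv.Perm ↥Δ := τ⁻¹ * σ * τ with hρ
  have hρmem : ρ ∈ Xr G Δ := mul_mem (mul_mem (inv_mem hτ) hσ) hτ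
  have hρx : ρ x = x := by
    rw [hρ, Equiv.Perm.mul_apply, Equiv.Perm.mul_apply, hτx, hσd, ← hτx]
    simp
  have hρy : ρ y = z := by
    rw [hρ, Equiv.Perm.mul_apply, Equiv.Perm.mul_apply, hσy]
    simp
  rcases hBl ρ hρmem with h | h
  · rw [← h]
    exact ⟨y, hy, hρy⟩
  · exfalso
    exact Set.disjoint_left.mp h ⟨x, hx, hρx⟩ hx

end Cfsg.Agent.Lib.Helper68.MG
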