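import Mathlib
import Cfsg.Agent.Lib.Helper68.MG.Defs
import Cfsg.Agent.Lib.Helper68.MG.E
import Cfsg.Agent.Lib.Helper68.MG.P1
import Cfsg.Agent.Lib.Helper68.MG.G0
import Cfsg.Agent.Lib.Helper68.MG.CH
import Cfsg.Agent.Lib.Helper68.MG.TW
import Cfsg.Agent.Lib.Helper68.MG.BR1
import Cfsg.Agent.Lib.Helper68.MG.BR2
import Cfsg.Agent.Lib.Helper68.MG.M1d
import Cfsg.Agent.Lib.Helper68.MG.JX
import Cfsg.Agent.Lib.Helper68.MG.M2
import Cfsg.Agent.Lib.Helper68.MG.NC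

/-!
# S3620 (Marggraf), primitive case: the final induction
-/

set_option autoImplicit false

namespace Cfsg.Agent.Lib.Helper68.MG

universe u

theorem fin3 {Ω : Type u} [Fintype Ω] [DecidableEq Ω] (G : Subgroup (Equiv.Perm Ω)) (hP : Prim G)
    (h : ∃ c ∈ G, c.IsThreeCycle) : alternatingGroup Ω ≤ G := by
  obtain ⟨c, hc, h3⟩ := h
  exact Equiv.Perm.alternatingGroup_le_of_isPreprimitive_of_isThreeCycle_mem (BR2 G hP) h3 hc

theorem thmP' : ∀ (n : ℕ) (Ω : Type u) [Fintype Ω] [DecidableEq Ω] (G : Subgroup (Equiv.Perm Ω)),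
    Fintype.card Ω = n → Prim G → ∀ Γ : Set Ω, 2 ≤ Γ.ncard → 2 * Γ.ncard < Fintype.card Ω → Jor G Γᶜ →
    alternatingGroup Ω ≤ G := by
  intro n
  induction n using Nat.strong_induction_on with
  | _ n ih =>
    intro Ω _ _ G hn hP Γ h2 hlt hJ
    obtain ⟨Δ, hΔ⟩ : ∃ Δ : Set Ω, Δ = Γᶜ := ⟨_, rfl⟩
    rw [← hΔ] at hJ
    have hΔc : Δᶜ = Γ := by rw [hΔ, compl_compl]
    have hcard : Δ.ncard + Γ.ncard = Fintype.card Ω := by
      rw [hΔ, ← Nat.card_eq_fintype_card, add_comm]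
      exact Set.ncard_add_ncard_compl Γ
    have h2' : 2 ≤ Δᶜ.ncard := by rw [hΔc]; exact h2
    have hlt' : Δᶜ.ncard < Δ.ncard := by rw [hΔc]; omega
    have hΔne : Δ.Nonempty := by
      rw [← Set.ncard_pos]; omega
    obtain ⟨B, hE⟩ := E G hP Δ hΔne h2' hJ
    apply fin3 G hP
    have hBpos : 0 < B.ncard := (Set.ncard_pos).2 hE.ne
    rcases Nat.lt_or_ge B.ncard 2 with h1 | hB2
    · have hB1 : B.ncard = 1 := by omega
      obtain ⟨b, rfl⟩ := Set.ncard_eq_one.1 hB1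
      exact M1d G hP Δ b (hE.sub rfl) hJ hE.jor h2' hlt'
    · have hdvd := P1 G Δ B hE
      have hc2 : (Δ \ B)ᶜ.ncard = Γ.ncard + B.ncard := by
        have h1 : (Δ \ B)ᶜ = Γ ∪ B := by
          rw [Set.compl_diff, hΔc, Set.union_comm]
        rw [h1]
        refine Set.ncard_union_eq ?_ (Set.toFinite _) (Set.toFinite _)
        rw [← hΔc]
        exact Set.disjoint_left.2 (fun x hx hxB => hx (hE.sub hxB))
      have hltB : B.ncard < Γ.ncard := by
        have := hE.lt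
        rwa [hΔc] at this
      have h2e : 2 * B.ncard ≤ Γ.ncard := by
        rw [hc2] at hdvd
        have h3 : B.ncard ∣ Γ.ncard := (Nat.dvd_add_left (dvd_refl _)).1 hdvd
        obtain ⟨k, hk⟩ := h3
        rcases k with _ | _ | k
        · simp at hk; omega
        · simp at hk; omega
        · rw [hk]; nlinarith
      obtain ⟨d, hd, hg1, hg0⟩ := CH G hP Δ h2' hJ _ Δ rfl hΔne (G0 G Δ hJ)
      have hPX := TW G Δ d hd hg1 hg0
      haveI : Fintype ↥Δ := Fintype.ofFinite _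
      haveI : DecidableEq ↥Δ := Classical.decEq _
      have hcΔ : Fintype.card ↥Δ = Δ.ncard := by
        rw [← Nat.card_eq_fintype_card]; rfl
      have hA : alternatingGroup ↥Δ ≤ Xr G Δ := by
        refine ih (Fintype.card ↥Δ) ?_ ↥Δ (Xr G Δ) rfl hPX {x : ↥Δ | (x : Ω) ∈ B} ?_ ?_ (JX G Δ B hE)
        · omega
        · rw [NC Δ B hE.sub]; exact hB2
        · rw [NC Δ B hE.sub, hcΔ]; omega
      exact M2 G Δ (by rw [hcΔ]; omega) h2' hlt' hA

/-- **Marggraf, primitive case.** -/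
theorem thmP {Ω : Type u} [Fintype Ω] [DecidableEq Ω] (G : Subgroup (Equiv.Perm Ω))
    (hprim : MulAction.IsPreprimitive ↥G Ω) (Γ : Set Ω) (h1 : 2 ≤ Γ.ncard)
    (h2 : 2 * Γ.ncard < Fintype.card Ω) (hJ : Jor G Γᶜ) : alternatingGroup Ω ≤ G :=
  thmP' _ Ω G rfl (BR1 G hprim) Γ h1 h2 hJ

end Cfsg.Agent.Lib.Helper68.MG
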