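import Mathlib
import Cfsg.Agent.Lib.Helper68.MG.Defs

set_option autoImplicit false

namespace Cfsg.Agent.Lib.Helper68.MG

universe u
variable {Ω : Type u} [Finite Ω]
/-- `Subtype.val` is injective and maps `{x : ↥Δ | ↑x ∈ B}` onto `B` (`B ⊆ Δ`): `Set.ncard_image_of_injective`. -/
theorem NC (Δ B : Set Ω) (hB : B ⊆ Δ) : ({x : ↥Δ | (x : Ω) ∈ B} : Set ↥Δ).ncard = B.ncard := by
  rw [← Set.ncard_image_of_injective _ Subtype.val_injective]
  congr 1
  ext y
  constructor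
  · rintro ⟨x, hx, rfl⟩
    exact hx
  · intro hy
    exact ⟨⟨y, hB hy⟩, hy, rfl⟩

end Cfsg.Agent.Lib.Helper68.MG
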